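import Mathlib
import Cfsg.Agent.H37.Involve

set_option autoImplicit false

namespace Cfsg.Agent.H37

open Matrix

/-- Two matrices in `SL₂` fixing a common nonzero vector commute. -/
theorem sl2_comm_of_common_fixed {K : Type*} [Field K]
    (g h : Matrix.SpecialLinearGroup (Fin 2) K) (v : Fin 2 → K) (hv : v ≠ 0)
    (hg : (g : Matrix (Fin 2) (Fin 2) K) *ᵥ v = v) (hh : (h : Matrix (Fin 2) (Fin 2) K) *ᵥ v = v) :
    g * h = h * g := by
  -- a uniform description: every such matrix is `1 + c • T` for a fixed `T`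
  have key : ∃ T : Matrix (Fin 2) (Fin 2) K, ∀ k : Matrix.SpecialLinearGroup (Fin 2) K,
      (k : Matrix (Fin 2) (Fin 2) K) *ᵥ v = v → ∃ c : K, (k : Matrix (Fin 2) (Fin 2) K) = 1 + c • T := by
    by_cases hv1 : v 1 = 0
    · have hv0 : v 0 ≠ 0 := by
        intro h0
        apply hv
        ext i
        fin_cases i
        · exact h0
        · exact hv1
      refine ⟨!![0, 1; 0, 0], fun k hk => ⟨(k : Matrix (Fin 2) (Fin 2) K) 0 1, ?_⟩⟩
      have hdet := k.det_coe
      rw [Matrix.det_fin_two] at hdet
      have e0 := congrFun hk 0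
      have e1 := congrFun hk 1
      simp only [Matrix.mulVec, dotProduct, Fin.sum_univ_two, hv1, mul_zero, add_zero] at e0 e1
      have h00 : (k : Matrix (Fin 2) (Fin 2) K) 0 0 = 1 := by
        have : ((k : Matrix (Fin 2) (Fin 2) K) 0 0 - 1) * v 0 = 0 := by
          rw [sub_mul, e0, one_mul, sub_self]
        rcases mul_eq_zero.mp this with h | h
        · exact sub_eq_zero.mp h
        · exact absurd h hv0
      have h10 : (k : Matrix (Fin 2) (Fin 2) K) 1 0 = 0 := by
        rcases mul_eq_zero.mp e1 with h | h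
        · exact h
        · exact absurd h hv0
      have h11 : (k : Matrix (Fin 2) (Fin 2) K) 1 1 = 1 := by
        rw [h00, h10] at hdet
        simpa using hdet
      ext i j
      fin_cases i <;> fin_cases j <;> simp [h00, h10, h11]
    · refine ⟨!![v 0 / v 1, -(v 0 / v 1) ^ 2; 1, -(v 0 / v 1)],
        fun k hk => ⟨(k : Matrix (Fin 2) (Fin 2) K) 1 0, ?_⟩⟩
      have hdet := k.det_coe
      rw [Matrix.det_fin_two] at hdet
      have e0 := congrFun hk 0
      have e1 := congrFun hk 1
      simp only [Matrix.mulVec, dotProduct, Fin.sum_univ_two] at e0 e1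
      ext i j
      fin_cases i <;> fin_cases j
      · simp
        field_simp
        linear_combination (v 1) * hdet - ((k : Matrix (Fin 2) (Fin 2) K) 0 0) * e1
          + ((k : Matrix (Fin 2) (Fin 2) K) 1 0) * e0
      · simp
        field_simp
        linear_combination (v 1) * e0 - (v 0) * ((v 1) * hdet
          - ((k : Matrix (Fin 2) (Fin 2) K) 0 0) * e1 + ((k : Matrix (Fin 2) (Fin 2) K) 1 0) * e0)
      · simp
      · simp
        field_simp
        linear_combination e1
  obtain ⟨T, hT⟩ := key
  obtain ⟨a, ha⟩ := hT g hg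
  obtain ⟨b, hb⟩ := hT h hh
  apply Subtype.ext
  rw [Matrix.SpecialLinearGroup.coe_mul, Matrix.SpecialLinearGroup.coe_mul, ha, hb]
  have h1 : Commute (a • T) (b • T) := ((Commute.refl T).smul_right b).smul_left a
  have h2 : Commute (a • T) (1 + b • T) := (Commute.one_right _).add_right h1
  exact ((Commute.one_left (1 + b • T)).add_left h2).eq

/-- In characteristic `p`, every `p`-subgroup of `SL₂(K)` is commutative. -/
theorem sl2_pSubComm {p : ℕ} [Fact p.Prime] {K : Type*} [Field K] [Fintype K] [CharP K p] :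
    PSubComm p (Matrix.SpecialLinearGroup (Fin 2) K) := by
  intro Q hQ x hx y hy
  classical
  letI : MulAction Q (Fin 2 → K) := MulAction.compHom (Fin 2 → K)
    ((Matrix.SpecialLinearGroup.toLin' (n := Fin 2) (R := K)).comp Q.subtype)
  have hpK : p ∣ Fintype.card K := by
    rw [← CharP.cast_eq_zero_iff K p]
    exact Nat.cast_card_eq_zero K
  have hp : p ∣ Nat.card (Fin 2 → K) := by
    rw [Nat.card_eq_fintype_card, Fintype.card_fun, Fintype.card_fin]
    exact hpK.trans (dvd_pow_self _ (by norm_num))
  have h0 : (0 : Fin 2 → K) ∈ MulAction.fixedPoints Q (Fin 2 → K) := by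
    intro g
    change (Matrix.SpecialLinearGroup.toLin' (g : Matrix.SpecialLinearGroup (Fin 2) K)) 0 = 0
    simp
  obtain ⟨v, hv, hv0⟩ := hQ.exists_fixed_point_of_prime_dvd_card_of_fixed_point (Fin 2 → K) hp h0
  have key : ∀ g ∈ Q, (g : Matrix (Fin 2) (Fin 2) K) *ᵥ v = v := by
    intro g hg
    have := hv ⟨g, hg⟩
    change (Matrix.SpecialLinearGroup.toLin' g) v = v at this
    simpa [Matrix.SpecialLinearGroup.toLin'_apply] using this
  exact sl2_comm_of_common_fixed x y v (Ne.symm hv0) (key x hx) (key y hy)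

end Cfsg.Agent.H37
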